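import Cfsg.Agent.H125.Hall.Defs

/-!
# S2223, stub G5: the Hall property and central extensions (helper128, task 4192)
-/

set_option autoImplicit false

namespace Cfsg.Agent.H128.Hall

open Subgroup Cfsg.Agent.H125.Hall

section

variable {G : Type*} [Group G]

/-- the elements of a central subgroup whose order is prime to `m` -/
def prm (Z : Subgroup G) (hZ : Z ≤ Subgroup.center G) (m : ℕ) : Subgroup G where
  carrier := {z | z ∈ Z ∧ (orderOf z).Coprime m}
  one_mem' := ⟨Z.one_mem, by rw [orderOf_one]; exact Nat.coprime_one_left m⟩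
  mul_mem' := by
    rintro a b ⟨ha, ha'⟩ ⟨hb, hb'⟩
    refine ⟨Z.mul_mem ha hb, ?_⟩
    have hc : Commute a b := (Subgroup.mem_center_iff.1 (hZ ha) b).symm
    refine Nat.Coprime.coprime_dvd_left (hc.orderOf_mul_dvd_lcm.trans (Nat.lcm_dvd_mul _ _)) ?_
    exact Nat.Coprime.mul_left ha' hb'
  inv_mem' := by
    rintro a ⟨ha, ha'⟩
    exact ⟨Z.inv_mem ha, by rw [orderOf_inv]; exact ha'⟩

theorem mem_prm {Z : Subgroup G} {hZ : Z ≤ Subgroup.center G} {m : ℕ} {z : G} :
    z ∈ prm Z hZ m ↔ z ∈ Z ∧ (orderOf z).Coprime m := Iff.rfl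

theorem prm_le {Z : Subgroup G} {hZ : Z ≤ Subgroup.center G} {m : ℕ} : prm Z hZ m ≤ Z := fun _ h => h.1

variable [Finite G]

theorem card_prm {Z : Subgroup G} (hZ : Z ≤ Subgroup.center G) (m : ℕ) : (Nat.card (prm Z hZ m)).Coprime m := by
  rw [Nat.coprime_iff_gcd_eq_one]
  by_contra hne
  obtain ⟨r, hr, hd⟩ := Nat.exists_prime_and_dvd hne
  have h1 : r ∣ Nat.card (prm Z hZ m) := hd.trans (Nat.gcd_dvd_left _ _)
  have h2 : r ∣ m := hd.trans (Nat.gcd_dvd_right _ _)
  have hf : Fact r.Prime := ⟨hr⟩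
  obtain ⟨x, hx⟩ := exists_prime_orderOf_dvd_card' (G := prm Z hZ m) r h1
  have h3 := x.2.2
  rw [Subgroup.orderOf_coe, hx] at h3
  exact hr.one_lt.ne' ((Nat.Coprime.eq_one_of_dvd h3 h2))

theorem relIndex_prm {Z : Subgroup G} (hZ : Z ≤ Subgroup.center G) (m : ℕ) {r : ℕ} (hr : r.Prime)
    (h : r ∣ (prm Z hZ m).relIndex Z) : r ∣ m := by
  by_contra hrm
  have hf : Fact r.Prime := ⟨hr⟩
  obtain ⟨P⟩ : Nonempty (Sylow r Z) := inferInstance
  have h1 : (P : Subgroup Z) ≤ (prm Z hZ m).subgroupOf Z := by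
    intro x hx
    rw [Subgroup.mem_subgroupOf, mem_prm]
    refine ⟨x.2, ?_⟩
    obtain ⟨n, hn⟩ := (IsPGroup.iff_orderOf.1 P.2) ⟨x, hx⟩
    rw [← Subgroup.orderOf_coe] at hn
    rw [Subgroup.orderOf_coe]
    change orderOf x = r ^ n at hn
    rw [hn]
    exact Nat.Coprime.pow_left n ((Nat.Prime.coprime_iff_not_dvd hr).2 hrm)
  have h2 : ((prm Z hZ m).subgroupOf Z).index ∣ (P : Subgroup Z).index := Subgroup.index_dvd_of_le h1
  have h3 : r ∣ (P : Subgroup Z).index := (show r ∣ ((prm Z hZ m).subgroupOf Z).index from h).trans h2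
  exact P.not_dvd_index h3

/-- a Hall subgroup of the preimage of `H` -/
theorem exists_hall {G' : Type*} [Group G'] [Finite G'] (π : G →* G') (hπ : Function.Surjective π)
    (hc : π.ker ≤ Subgroup.center G) (H : Subgroup G') (hH : (Nat.card H).Coprime H.index) :
    ∃ K : Subgroup G, K.map π = H ∧ (Nat.card K).Coprime K.index ∧ Nat.card H ∣ Nat.card K ∧
      ∀ r : ℕ, r.Prime → r ∣ Nat.card K → r ∣ Nat.card H := by
  set m := Nat.card H with hm
  set Z1 := prm π.ker hc m with hZ1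
  set K := H.comap π with hK
  have hkK : π.ker ≤ K := fun x hx => by
    rw [hK, Subgroup.mem_comap, MonoidHom.mem_ker.1 hx]
    exact H.one_mem
  have hZK : Z1 ≤ K := prm_le.trans hkK
  have hKi : K.index = H.index := Subgroup.index_comap_of_surjective H hπ
  have hG : Nat.card π.ker * Nat.card G' = Nat.card G := by
    have h1 := π.ker.card_mul_index
    rw [Subgroup.index_ker, MonoidHom.range_eq_top.2 hπ, Subgroup.card_top] at h1
    exact h1
  have hG' : m * H.index = Nat.card G' := H.card_mul_index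
  have hGK : Nat.card K * H.index = Nat.card G := by rw [← hKi]; exact K.card_mul_index
  have hHi : H.index ≠ 0 := Subgroup.index_ne_zero_of_finite
  have hcK : Nat.card K = Nat.card π.ker * m := by
    apply Nat.eq_of_mul_eq_mul_right (Nat.pos_of_ne_zero hHi)
    rw [hGK, ← hG, ← hG', mul_assoc]
  have hrK : π.ker.relIndex K = m := by
    have h1 := Subgroup.card_mul_index (π.ker.subgroupOf K)
    rw [Nat.card_congr (Subgroup.subgroupOfEquivOfLe hkK).toEquiv, hcK] at h1
    exact Nat.eq_of_mul_eq_mul_left Nat.card_pos h1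
  set t := Z1.relIndex π.ker with ht
  have hrZ : Z1.relIndex K = t * m := by
    rw [← Subgroup.relIndex_mul_relIndex Z1 π.ker K prm_le hkK, hrK]
  have htm : ∀ r : ℕ, r.Prime → r ∣ t → r ∣ m := fun r hr hd => relIndex_prm hc m hr hd
  have hZm : (Nat.card Z1).Coprime m := card_prm hc m
  have hZt : (Nat.card Z1).Coprime t := by
    rw [Nat.coprime_iff_gcd_eq_one]
    by_contra hne
    obtain ⟨r, hr, hd⟩ := Nat.exists_prime_and_dvd hne
    have h1 : r ∣ Nat.card Z1 := hd.trans (Nat.gcd_dvd_left _ _)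
    have h2 : r ∣ m := htm r hr (hd.trans (Nat.gcd_dvd_right _ _))
    exact hr.one_lt.ne' (Nat.eq_one_of_dvd_coprimes hZm h1 h2)
  have hN : (Z1.subgroupOf K).Normal := by
    refine ⟨fun n hn g => ?_⟩
    rw [Subgroup.mem_subgroupOf] at hn ⊢
    have h1 : (n : G) ∈ Subgroup.center G := hc (prm_le hn)
    have h2 : (g * n * g⁻¹ : K) = n := by
      apply Subtype.ext
      show (g : G) * n * (g : G)⁻¹ = n
      rw [Subgroup.mem_center_iff.1 h1, mul_inv_cancel_right]
    rw [h2]
    exact hn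
  have hcN : Nat.card (Z1.subgroupOf K) = Nat.card Z1 :=
    Nat.card_congr (Subgroup.subgroupOfEquivOfLe hZK).toEquiv
  have hiN : (Z1.subgroupOf K).index = t * m := hrZ
  obtain ⟨L, hL⟩ := Subgroup.exists_right_complement'_of_coprime (N := Z1.subgroupOf K)
    (by rw [hcN, hiN]; exact Nat.Coprime.mul_right hZt hZm)
  have hcL : Nat.card L = t * m := by
    have h1 := hL.card_mul
    have h2 := Subgroup.card_mul_index (Z1.subgroupOf K)
    rw [hiN, ← h1] at h2
    exact (Nat.eq_of_mul_eq_mul_left Nat.card_pos h2).symm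
  have hcM : Nat.card (L.map K.subtype) = t * m := by
    rw [Subgroup.card_map_of_injective K.subtype_injective, hcL]
  have hiM : (L.map K.subtype).index = Nat.card Z1 * H.index := by
    have h1 := (L.map K.subtype).card_mul_index
    have h2 := Subgroup.card_mul_index (Z1.subgroupOf K)
    rw [hcN, hiN] at h2
    rw [hcM, ← hGK, ← h2] at h1
    have h3 : t * m ≠ 0 := by rw [← hcM]; exact Nat.card_pos.ne'
    apply Nat.eq_of_mul_eq_mul_left (Nat.pos_of_ne_zero h3)
    rw [h1]
    ring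
  refine ⟨L.map K.subtype, ?_, ?_, ?_, ?_⟩
  · apply le_antisymm
    · rintro _ ⟨_, ⟨y, -, rfl⟩, rfl⟩
      exact y.2
    · intro x hx
      obtain ⟨y, rfl⟩ := hπ x
      obtain ⟨⟨n, l⟩, hnl⟩ := hL.2 ⟨y, hx⟩
      refine ⟨_, ⟨(l : K), l.2, rfl⟩, ?_⟩
      have h1 : ((n : K) : G) * ((l : K) : G) = y := congrArg Subtype.val hnl
      have h2 : π ((n : K) : G) = 1 := prm_le (hZ := hc) n.2
      show π ((l : K) : G) = π y
      rw [← h1, map_mul, h2, one_mul]
  · rw [hcM, hiM]
    have h1 : ∀ r : ℕ, r.Prime → r ∣ t * m → ¬ r ∣ Nat.card Z1 * H.index := by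
      intro r hr hd hd'
      have h2 : r ∣ m := by
        rcases hr.dvd_mul.1 hd with h | h
        · exact htm r hr h
        · exact h
      rcases hr.dvd_mul.1 hd' with h | h
      · exact hr.one_lt.ne' (Nat.eq_one_of_dvd_coprimes hZm h h2)
      · exact hr.one_lt.ne' (Nat.eq_one_of_dvd_coprimes hH h2 h)
    rw [Nat.coprime_iff_gcd_eq_one]
    by_contra hne
    obtain ⟨r, hr, hd⟩ := Nat.exists_prime_and_dvd hne
    exact h1 r hr (hd.trans (Nat.gcd_dvd_left _ _)) (hd.trans (Nat.gcd_dvd_right _ _))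
  · rw [hcM]
    exact dvd_mul_left _ _
  · intro r hr hd
    rw [hcM] at hd
    rcases hr.dvd_mul.1 hd with h | h
    · exact htm r hr h
    · exact h

theorem isPronormal_map {Q : Type*} [Group Q] {f : G →* Q} (hf : Function.Surjective f) {H : Subgroup G}
    (h : Cfsg.IsPronormal H) : Cfsg.IsPronormal (H.map f) := by
  have key : ∀ x : G, (H.map (MulAut.conj x).toMonoidHom).map f = (H.map f).map (MulAut.conj (f x)).toMonoidHom := by
    intro x
    rw [Subgroup.map_map, Subgroup.map_map]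
    congr 1
    ext y
    simp
  intro g
  obtain ⟨g, rfl⟩ := hf g
  obtain ⟨x, hx, hx2⟩ := h g
  refine ⟨f x, ?_, ?_⟩
  · rw [← key, ← Subgroup.map_sup]
    exact Subgroup.mem_map_of_mem f hx
  · rw [← key, ← key, hx2]

/-- **G5.** (The prime `p` may divide the order of the kernel.) -/
theorem of_central' {G' : Type*} [Group G'] [Finite G'] {p : ℕ} (hpp : p.Prime) (π : G →* G')
    (hπ : Function.Surjective π) (hc : π.ker ≤ Subgroup.center G) (h : HP p G) : HP p G' := by
  intro H hH h2 hpH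
  obtain ⟨K, hK, hcop, hdvd, hpr⟩ := exists_hall π hπ hc H hH
  rw [← hK]
  refine isPronormal_map hπ (h K hcop ?_ fun hd => hpH (hpr p hpp hd))
  exact even_iff_two_dvd.2 ((even_iff_two_dvd.1 h2).trans hdvd)

/-- **G5**, with the hypotheses of the stub and `p` prime. -/
theorem HP.of_central {G' : Type*} [Group G'] [Finite G'] {p : ℕ} (hpp : p.Prime) (π : G →* G')
    (hπ : Function.Surjective π) (hc : π.ker ≤ Subgroup.center G) (_hp : ¬ p ∣ Nat.card π.ker) (h : HP p G) :
    HP p G' := of_central' hpp π hπ hc h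

end

end Cfsg.Agent.H128.Hall
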